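import Cfsg.Agent.H559.OZ.TwoTorus

/-!
# S4842, `POmega⁺_8`: the three primes (helper559)

* `isoP8` : a prime dividing `q ^ 3 - 1`, not `q - 1`, `q ^ 2 - 1`, is isolated (`q ≥ 3`);
* `cong_eight` : `Cong p r 0 S` for an odd prime `r ∣ q ^ 2 + 1`.
-/

set_option autoImplicit false

namespace Cfsg.Agent.H559.OZ

open Module QuadraticMap Cfsg Subgroup
open Cfsg.Agent.LieClassical.OrthCore Cfsg.Agent.LieClassical.OrthTrans Cfsg.Agent.H890.SpParity
open Cfsg.Agent.LieClassical.OrthFinite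
open Cfsg.Agent.H182.Sign Cfsg.Agent.H182.Orth Cfsg.Agent.H530.CJ Cfsg.Agent.H93.CJ Cfsg.Agent.H93.PReg
open Cfsg.Agent.H530.OZ Cfsg.Agent.H730.OZ

universe u

theorem numP8 {q r : ℕ} (hq : 3 ≤ q) (hr : r.Prime) (hle : r ≤ 9) (h4 : q ^ 3 - 1 ∣ 2 * r) : False := by
  have hr0 : 0 < r := hr.pos
  have h27 : 3 ^ 3 ≤ q ^ 3 := Nat.pow_le_pow_left hq 3
  have := Nat.le_of_dvd (by omega) h4
  omega

/-- **Primes dividing `q ^ 3 - 1`, dimension 8.** -/
theorem isoP8 {F : Type} [Field F] [Fintype F] {p : ℕ} [Fact p.Prime] [CharP F p] (hF3 : 3 ≤ Fintype.card F)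
    {ι : Type} [Fintype ι] [DecidableEq ι] {R : QuadraticForm F (ι → F)}
    (hR : Sg R 4 1) {S : Type*} [Group S] (i : POmega F ⇑R ≃* S) {r : ℕ} (hr : r.Prime)
    (hr1 : r ∣ Fintype.card F ^ 3 - 1) (hr2 : ∀ i : ℕ, 0 < i → i < 3 → ¬ r ∣ Fintype.card F ^ i - 1) :
    IsoAt p r S := by
  obtain ⟨K, _, _, b, hKf, y, hK, hy⟩ := Singer.exists_ext F 3 (by omega)
  have hrk : Module.finrank F K = 3 := by rw [Module.finrank_eq_card_basis b, Fintype.card_fin]
  have hQ := sg_tq F K hrk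
  have hQ' := sg_hypForm (F := F)
  obtain ⟨hG, π, hπ, hker⟩ := exists_pi' (hQ.prod hQ') (by omega) (by rw [mul_one]; exact hR) i
  have hcF : Nat.card F = Fintype.card F := Nat.card_eq_fintype_card
  have hF : 2 ≤ Fintype.card F := Fintype.one_lt_card
  have hFk : 3 ^ 3 ≤ Fintype.card F ^ 3 := Nat.pow_le_pow_left hF3 3
  obtain ⟨s, hs⟩ := hr1
  have hs0 : s ≠ 0 := by
    rintro rfl
    omega
  set lam : Kˣ := y ^ s with hlam
  have hlamo : orderOf (lam : K) = r := by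
    rw [orderOf_units, hlam, orderOf_pow_of_dvd hs0 (by rw [hy, hs]; exact Dvd.intro_left r rfl), hy, hs,
      Nat.mul_div_cancel _ (Nat.pos_of_ne_zero hs0)]
  have hr2' : r ≠ 2 := by
    rintro rfl
    rcases Nat.even_or_odd (Fintype.card F) with h | h
    · have h1 : Odd (Fintype.card F ^ 3 - 1) := Nat.Even.sub_odd (by omega) (h.pow_of_ne_zero (by omega)) odd_one
      rw [hs] at h1
      exact (Nat.not_odd_iff_even.2 (even_two_mul s)) h1
    · have h1 := hr2 1 one_pos (by omega)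
      rw [pow_one] at h1
      exact h1 (Nat.Odd.sub_odd h odd_one).two_dvd
  have hT := torU_plus (F := F) (r := r) (lam := lam) (by omega) (tor_of_odd hr hr2' lam.ne_zero hlamo
    (by rw [hrk]; decide) (by
    intro i hi hi2
    rw [hcF]
    rw [hrk] at hi2
    exact hr2 i hi hi2)) hlamo
  have hr2'' : Odd r := hr.odd_of_ne_two hr2'
  have hPd : finrank F (F × F) = 2 * 1 := hQ'.dim
  refine iso_orth (p := p) hr hT (hQ.prod hQ').nondeg (by rw [hPd]; omega) ?_ ?_ ?_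
    (mem_of_odd hG hT.memO hr2'' hT.pow_eq) π hπ hker ?_
  · rw [hcF]
    intro h1
    have h3 : Fintype.card F ^ 3 = r * s + 1 := by omega
    have h2 : r ∣ 1 := (Nat.dvd_add_right (Dvd.intro s rfl)).1 (h3 ▸ Dvd.dvd.pow h1 (by omega))
    exact hr.one_lt.ne' (Nat.dvd_one.1 h2)
  · rw [hcF]
    have h1 := hr2 1 one_pos (by omega)
    rwa [pow_one] at h1
  · rw [hcF]
    exact hr2 2 two_pos (by omega)
  · rintro ⟨h1, h2⟩
    have h3 := h1 ⟨zz (F × F) (dw y ^ 2), sq_mem hG (dw_mem_O y)⟩ (by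
      apply Subtype.ext
      show zz (F × F) (dw lam) * zz (F × F) (dw y ^ 2) = zz (F × F) (dw y ^ 2) * zz (F × F) (dw lam)
      refine LinearEquiv.ext fun v => Prod.ext ?_ rfl
      show (dw lam : (K × K) ≃ₗ[F] (K × K)) ((dw y ^ 2 : (K × K) ≃ₗ[F] (K × K)) v.1) =
        (dw y ^ 2 : (K × K) ≃ₗ[F] (K × K)) ((dw lam : (K × K) ≃ₗ[F] (K × K)) v.1)
      rw [dw_pow, dw_apply, dw_apply, dw_apply, dw_apply]
      refine Prod.ext ?_ ?_
      · show (lam : K) * (((y ^ 2 : Kˣ) : K) * v.1.1) = ((y ^ 2 : Kˣ) : K) * ((lam : K) * v.1.1)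
        ring
      · show ((lam⁻¹ : Kˣ) : K) * ((((y ^ 2)⁻¹ : Kˣ) : K) * v.1.2) = (((y ^ 2)⁻¹ : Kˣ) : K) * (((lam⁻¹ : Kˣ) : K) * v.1.2)
        ring)
    have hnt' : Nontrivial ((K × K) × (F × F)) := inferInstance
    obtain ⟨a, ha2, ha, haP⟩ := scal hker (hQ.prod hQ').nondeg hnt' _ h3
    have ha1 : a = 1 := haP inferInstance
    have h4 : ((y ^ (2 * r) : Kˣ) : K) = a • (1 : K) := by
      have h5 := ha (1, 0)
      rw [← pow_mul, dw_pow, dw_apply] at h5
      have h6 := congrArg Prod.fst h5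
      rw [mul_one] at h6
      exact h6
    refine numP8 hF3 hr ?_ ?_
    · rw [finrank_prod, hPd, hQ.dim] at h2
      omega
    · rw [← hy]
      apply orderOf_dvd_of_pow_eq_one
      apply Units.ext
      rw [h4, ha1, one_smul, Units.val_one]

/-- The automorphism `x ↦ x ^ (q ^ 2)`. -/
theorem exists_sigma {F L : Type} [Field F] [Fintype F] [Field L] [Finite L] [Algebra F L] (h4 : finrank F L = 4) :
    ∃ σ : L ≃ₐ[F] L, (∀ x, σ x = x ^ (Fintype.card F ^ 2)) ∧ ∀ x, σ (σ x) = x := by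
  have hfr : ∀ (k : ℕ) (x : L), (FiniteField.frobeniusAlgEquivOfAlgebraic F L ^ k) x = x ^ Fintype.card F ^ k := by
    intro k x
    rw [AlgEquiv.coe_pow, FiniteField.coe_frobeniusAlgEquivOfAlgebraic, pow_iterate]
  refine ⟨FiniteField.frobeniusAlgEquivOfAlgebraic F L ^ 2, hfr 2, fun x => ?_⟩
  have : Fintype L := Fintype.ofFinite L
  rw [hfr, hfr, ← pow_mul]
  have hcL : Fintype.card L = Fintype.card F ^ 4 := by
    rw [← h4]
    exact Module.card_eq_pow_finrank
  have h2 : Fintype.card F ^ 2 * Fintype.card F ^ 2 = Fintype.card L := by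
    rw [hcL]
    ring
  rw [h2, FiniteField.pow_card]

/-- A unipotent element commuting with `(a, 1)`. -/
theorem exists_uni {F L : Type} [Field F] [Finite F] [Field L] [Finite L] [Algebra F L] {p : ℕ} [CharP F p]
    {Q : QuadraticForm F L} (hQ : Nondeg Q) (hd : 3 ≤ finrank F L) :
    ∃ g ∈ E (prodForm Q Q), g ^ p = 1 ∧ g ≠ 1 ∧ ∀ a : Lˣ, (∀ v, Q ((a : L) * v) = Q v) → Commute (dd (a, 1)) g := by
  obtain ⟨e, he0, he, -⟩ := exists_sing_perp (Q := Q) (n := 0) ![] (by omega)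
  obtain ⟨f, hf⟩ := exists_hyp hQ he he0
  obtain ⟨w, c, hew, hfw, -, -, hwc⟩ := exists_perp2 hQ hd hf
  have hpol : ∀ x y : L, polar (prodForm Q Q) ((0, x) : L × L) (0, y) = polar Q x y := by
    intro x y
    simp only [polar, prodForm_apply, Prod.mk_add_mk, add_zero, QuadraticMap.map_zero]
    ring
  have hu : prodForm Q Q ((0, e) : L × L) = 0 := by
    rw [prodForm_apply]
    show Q 0 + Q e = 0
    rw [QuadraticMap.map_zero, he, add_zero]
  have hw : polar (prodForm Q Q) ((0, e) : L × L) (0, w) = 0 := by rw [hpol, hew]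
  refine ⟨siegel (prodForm Q Q) (0, e) (0, w) hu hw, siegel_mem_E hu hw, siegel_pow_char hu hw, ?_, ?_⟩
  · intro h
    have h1 := congrArg Prod.snd (LinearEquiv.congr_fun h (0, f))
    rw [siegel_apply, hpol, hpol, prodForm_apply] at h1
    have h2 : f + polar Q e f • w - polar Q w f • e - ((Q 0 + Q w) * polar Q e f) • e = f := h1
    have hwf : polar Q w f = 0 := by rw [polar_comm]; exact hfw
    rw [hf.pair, hwf, zero_smul, sub_zero, one_smul, mul_one, QuadraticMap.map_zero, zero_add] at h2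
    have h3 : w = Q w • e := by
      have h4 : w - Q w • e = 0 := by
        have h5 : f + w - Q w • e - f = w - Q w • e := by abel
        rw [← h5, h2, sub_self]
      exact sub_eq_zero.1 h4
    have h4 : Q w = 0 := by
      have h5 := hfw
      rw [h3, polar_smul_right, hf.pair', smul_eq_mul, mul_one] at h5
      exact h5
    rw [h4, zero_smul] at h3
    rw [h3, polar_zero_left] at hwc
    exact zero_ne_one hwc
  · intro a ha
    have hO : dd (F := F) (a, 1) ∈ O (prodForm Q Q) := dd_mem_O ha (by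
      intro v
      show Q (((1 : Lˣ) : L) * v) = Q v
      rw [Units.val_one, one_mul])
    have hfix : ∀ x : L, dd (F := F) (a, 1) ((0, x) : L × L) = (0, x) := by
      intro x
      rw [dd_apply]
      refine Prod.ext (mul_zero _) ?_
      show ((1 : Lˣ) : L) * x = x
      rw [Units.val_one, one_mul]
    have h1 := siegel_conj hO hu hw (by rw [hfix]; exact hu) (by rw [hfix, hfix]; exact hw)
    have h2 : dd (F := F) (a, 1) * siegel (prodForm Q Q) (0, e) (0, w) hu hw * (dd (F := F) (a, 1))⁻¹ =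
        siegel (prodForm Q Q) (0, e) (0, w) hu hw := by
      rw [h1]
      ext v
      · rw [siegel_apply, siegel_apply, hfix, hfix]
      · rw [siegel_apply, siegel_apply, hfix, hfix]
    exact mul_inv_eq_iff_eq_mul.1 h2

/-- The element without fixed points and a unipotent element commuting with it. -/
theorem exists_x1 {F L : Type} [Field F] [Fintype F] [Field L] [Finite L] [Algebra F L] {p : ℕ} [CharP F p]
    {Q : QuadraticForm F L} (hG : Good (prodForm Q Q)) (hQ : Sg Q 2 (-1)) (hd : finrank F L = 4) {lam : Lˣ} {N : ℕ}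
    (hlam : orderOf lam = N) (hodd : Odd N) (hN : (lam : L) ^ (Fintype.card F ^ 2 + 1) = 1) :
    ∃ x u : E (prodForm Q Q), orderOf x = N ∧ (∀ (k : ℕ) (v : L × L), v ≠ 0 →
      ((x ^ k : E (prodForm Q Q)) : (L × L) ≃ₗ[F] (L × L)) v = v → x ^ k = 1) ∧ u ^ p = 1 ∧ u ≠ 1 ∧ Commute x u := by
  obtain ⟨e, he⟩ := (sg_tq F L hd).exists_equiv (Q' := prodForm Q Q) (by
    have h1 := hQ.prod hQ
    have h2 : (-1 * -1 : ℤ) = 1 := by norm_num
    rw [h2] at h1
    exact h1)
  obtain ⟨σ, hσ, hσσ⟩ := exists_sigma (F := F) (L := L) hd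
  have hF : 2 ≤ Fintype.card F := Fintype.one_lt_card
  have hchL : CharP L p := charP_of_injective_algebraMap (algebraMap F L).injective p
  -- a generator
  obtain ⟨g, hg⟩ := IsCyclic.exists_ofOrder_eq_natCard (α := Lˣ)
  have hgo : orderOf g = Fintype.card F ^ 4 - 1 := by
    have : Fintype L := Fintype.ofFinite L
    rw [hg, Nat.card_units, Module.natCard_eq_pow_finrank (K := F) (V := L), hd, Nat.card_eq_fintype_card]
  have hbig : ∀ m : ℕ, 0 < m → m ≤ Fintype.card F ^ 2 + 1 → g ^ m ≠ 1 := by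
    intro m hm hm2 h
    have h1 := Nat.le_of_dvd hm (orderOf_dvd_of_pow_eq_one h)
    rw [hgo] at h1
    have h2 : Fintype.card F ^ 4 = Fintype.card F ^ 2 * Fintype.card F ^ 2 := by ring
    have h3 : 2 * 2 ≤ Fintype.card F ^ 2 := by rw [pow_two]; exact Nat.mul_le_mul hF hF
    have h4 : 4 * Fintype.card F ^ 2 ≤ Fintype.card F ^ 2 * Fintype.card F ^ 2 := Nat.mul_le_mul_right _ h3
    omega
  have hg1 : (g : L) * σ g - 1 ≠ 0 := by
    intro h
    rw [sub_eq_zero, hσ, ← pow_succ'] at h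
    exact hbig _ (Nat.succ_pos _) le_rfl (Units.ext (by rw [Units.val_pow_eq_pow_val, h, Units.val_one]))
  have hg2 : (g : L) - σ g ≠ 0 := by
    intro h
    rw [sub_eq_zero, hσ] at h
    have h1 : 0 < Fintype.card F ^ 2 - 1 := by
      have h3 : 2 * 2 ≤ Fintype.card F ^ 2 := by rw [pow_two]; exact Nat.mul_le_mul hF hF
      omega
    refine hbig (Fintype.card F ^ 2 - 1) h1 (by omega) ?_
    apply mul_left_cancel (a := g)
    rw [← pow_succ', Nat.sub_add_cancel (by omega), mul_one]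
    exact Units.ext (by rw [Units.val_pow_eq_pow_val, ← h])
  have hO : ∀ h ∈ O (tq F L), e * h * e⁻¹ ∈ O (prodForm Q Q) := by
    intro h hh v
    show prodForm Q Q (e (h (e.symm v))) = _
    rw [he, hh, ← he, LinearEquiv.apply_symm_apply]
  have hdwinj : Function.Injective (fun z : Lˣ => (dw z : (L × L) ≃ₗ[F] (L × L))) := by
    intro z w hzw
    have h1 := congrArg Prod.fst (LinearEquiv.congr_fun (show (dw z : (L × L) ≃ₗ[F] (L × L)) = dw w from hzw) (1, 0))
    rw [dw_apply, dw_apply] at h1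
    have h2 : (z : L) * 1 = w * 1 := h1
    rw [mul_one, mul_one] at h2
    exact Units.ext h2
  have hdw1 : (dw (1 : Lˣ) : (L × L) ≃ₗ[F] (L × L)) = 1 := by rw [← pow_zero lam, ← dw_pow, pow_zero]
  have hpow : ∀ k : ℕ, (e * (dw lam : (L × L) ≃ₗ[F] (L × L)) * e⁻¹) ^ k = e * dw (lam ^ k) * e⁻¹ := by
    intro k
    rw [_root_.conj_pow, dw_pow]
  have hxE : e * (dw lam : (L × L) ≃ₗ[F] (L × L)) * e⁻¹ ∈ E (prodForm Q Q) := by
    refine Cfsg.Agent.ETable.Orth.mem_E_of_pow hG (hO _ (dw_mem_O lam)) hodd ?_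
    rw [hpow, ← hlam, pow_orderOf_eq_one, hdw1, mul_one, mul_inv_cancel]
  have hcomm : (lam : L) * σ lam = 1 := by rw [hσ, ← pow_succ']; exact hN
  have huE : e * us σ (((g : L) * σ g - 1) * (g - σ g)) * e⁻¹ ∈ E (prodForm Q Q) := by
    rw [← commutator_dw_us]
    have h1 := hG.commutator_le_E (Subgroup.commutator_mem_commutator (hO _ (dw_mem_O g)) (hO _ (us_mem_O hσσ g)))
    rw [commutatorElement_def] at h1
    have h2 : e * ((dw g : (L × L) ≃ₗ[F] (L × L)) * us σ (g - σ g) * (dw g)⁻¹ * (us σ (g - σ g))⁻¹) * e⁻¹ =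
        e * dw g * e⁻¹ * (e * us σ (g - σ g) * e⁻¹) * (e * dw g * e⁻¹)⁻¹ * (e * us σ (g - σ g) * e⁻¹)⁻¹ := by group
    rw [h2]
    exact h1
  have hone : ∀ h : (L × L) ≃ₗ[F] (L × L), e * h * e⁻¹ = 1 → h = 1 := by
    intro h hh
    have h2 : h = e⁻¹ * (e * h * e⁻¹) * e := by group
    rw [h2, hh]
    group
  refine ⟨⟨_, hxE⟩, ⟨_, huE⟩, ?_, ?_, ?_, ?_, ?_⟩
  · rw [← Subgroup.orderOf_coe]
    apply Nat.dvd_antisymm
    · apply orderOf_dvd_of_pow_eq_one
      show (e * (dw lam : (L × L) ≃ₗ[F] (L × L)) * e⁻¹) ^ N = 1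
      rw [hpow, ← hlam, pow_orderOf_eq_one, hdw1, mul_one, mul_inv_cancel]
    · rw [← hlam]
      apply orderOf_dvd_of_pow_eq_one
      have h1 : (e * (dw lam : (L × L) ≃ₗ[F] (L × L)) * e⁻¹) ^ orderOf (e * (dw lam : (L × L) ≃ₗ[F] (L × L)) * e⁻¹) = 1 :=
        pow_orderOf_eq_one _
      rw [hpow] at h1
      have h2 := hone _ h1
      rw [← hdw1] at h2
      exact hdwinj h2
  · intro k v hv h
    apply Subtype.ext
    have h0 : (e * (dw lam : (L × L) ≃ₗ[F] (L × L)) * e⁻¹) ^ k = e * dw (lam ^ k) * e⁻¹ := hpow k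
    have h1 : ((e * (dw lam : (L × L) ≃ₗ[F] (L × L)) * e⁻¹) ^ k : (L × L) ≃ₗ[F] (L × L)) v = v := h
    show (e * (dw lam : (L × L) ≃ₗ[F] (L × L)) * e⁻¹) ^ k = 1
    rw [h0] at h1 ⊢
    have h2 : (dw (lam ^ k) : (L × L) ≃ₗ[F] (L × L)) (e.symm v) = e.symm v := by
      apply e.injective
      rw [LinearEquiv.apply_symm_apply]
      exact h1
    have h3 : lam ^ k = 1 := by
      rw [dw_apply] at h2
      by_cases hv1 : (e.symm v).1 = 0
      · have hv2 : (e.symm v).2 ≠ 0 := by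
          intro h4
          apply hv
          rw [← LinearEquiv.map_eq_zero_iff e.symm]
          exact Prod.ext hv1 h4
        have h4 : (((lam ^ k)⁻¹ : Lˣ) : L) * (e.symm v).2 = (e.symm v).2 := congrArg Prod.snd h2
        have h5 : (((lam ^ k)⁻¹ : Lˣ) : L) = 1 := mul_right_cancel₀ hv2 (h4.trans (one_mul _).symm)
        exact inv_eq_one.1 (Units.ext h5)
      · have h4 : ((lam ^ k : Lˣ) : L) * (e.symm v).1 = (e.symm v).1 := congrArg Prod.fst h2
        exact Units.ext (mul_right_cancel₀ hv1 (h4.trans (one_mul _).symm))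
    rw [h3, hdw1, mul_one, mul_inv_cancel]
  · apply Subtype.ext
    show (e * us σ (((g : L) * σ g - 1) * (g - σ g)) * e⁻¹) ^ p = 1
    rw [_root_.conj_pow, us_pow, CharP.cast_eq_zero, zero_mul, us_zero, mul_one, mul_inv_cancel]
  · intro h
    have h1 : e * us σ (((g : L) * σ g - 1) * (g - σ g)) * e⁻¹ = 1 := congrArg Subtype.val h
    exact us_ne_one (mul_ne_zero hg1 hg2) (hone _ h1)
  · apply Subtype.ext
    have h1 := (dw_comm_us (((g : L) * σ g - 1) * (g - σ g)) hcomm).map (MulAut.conj e)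
    exact h1.eq

/-- **Primes dividing `q ^ 2 + 1`.** -/
theorem cong_eight {F : Type} [Field F] [Fintype F] {p : ℕ} [Fact p.Prime] [CharP F p]
    {ι : Type} [Fintype ι] [DecidableEq ι] {R : QuadraticForm F (ι → F)}
    (hR : Sg R 4 1) {S : Type u} [Group S] [Finite S] (i : POmega F ⇑R ≃* S) {r a s : ℕ} (hr : r.Prime) (hr2 : r ≠ 2)
    (ha : 0 < a) (hra : Fintype.card F ^ 2 + 1 = r ^ a * s)
    (hfac : (Nat.card S).factorization r = 2 * a) : Cong p r 0 S := by
  have hpp : p.Prime := Fact.out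
  obtain ⟨L, _, _, _, Q, u, hQ, hu, huQ⟩ := exists_torusM F (k := 2) two_ne_zero
  obtain ⟨hG, π, hπ, hker⟩ := exists_pi' (hQ.prod hQ) (by omega) (by
    have h1 : (-1 * -1 : ℤ) = 1 := by norm_num
    rw [h1]
    exact hR) i
  have hnd := (hQ.prod hQ).nondeg
  have hdL : finrank F L = 4 := hQ.dim
  have hcF : Nat.card F = Fintype.card F := Nat.card_eq_fintype_card
  have hF : 2 ≤ Fintype.card F := Fintype.one_lt_card
  set q := Fintype.card F with hqdef
  have hrq : r ∣ q ^ 2 + 1 := by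
    rw [hra]
    exact Dvd.dvd.mul_right (dvd_pow_self r ha.ne') s
  have hs0 : s ≠ 0 := by
    rintro rfl
    rw [mul_zero] at hra
    omega
  have hodd : Odd (r ^ a) := (hr.odd_of_ne_two hr2).pow
  -- `r` does not divide `q ^ i - 1`, `i < 4`
  have hnot2 : ¬ r ∣ q ^ 2 - 1 := by
    intro h
    have h1 := (Nat.dvd_sub hrq h)
    have h3 : 2 * 2 ≤ q ^ 2 := by rw [pow_two]; exact Nat.mul_le_mul hF hF
    have h2 : q ^ 2 + 1 - (q ^ 2 - 1) = 2 := by omega
    rw [h2] at h1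
    exact hr2 ((Nat.prime_dvd_prime_iff_eq hr Nat.prime_two).1 h1)
  have hnot : ∀ i : ℕ, 0 < i → i < 4 → ¬ r ∣ q ^ i - 1 := by
    intro i hi hi4 h
    have h2 : q ^ 2 - 1 = (q + 1) * (q - 1) := by
      have := Nat.sq_sub_sq q 1
      simpa using this
    have h3 : i = 1 ∨ i = 2 ∨ i = 3 := by omega
    rcases h3 with rfl | rfl | rfl
    · rw [pow_one] at h
      exact hnot2 (h2 ▸ Dvd.dvd.mul_left h _)
    · exact hnot2 h
    · have h4 : r ∣ q * (q ^ 2 + 1) - (q ^ 3 - 1) := Nat.dvd_sub (Dvd.dvd.mul_left hrq q) h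
      have h5 : q * (q ^ 2 + 1) - (q ^ 3 - 1) = q + 1 := by
        have h6 : q * (q ^ 2 + 1) = q ^ 3 + q := by ring
        have h7 : 0 < q ^ 3 := pow_pos (by omega) 3
        omega
      rw [h5] at h4
      exact hnot2 (h2 ▸ Dvd.dvd.mul_right h4 _)
  have hrp : r ≠ p := by
    rintro rfl
    have h1 : r ∣ q := (CharP.cast_eq_zero_iff F r q).1 (by
      rw [hqdef]
      exact FiniteField.cast_card_eq_zero F)
    have h2 : r ∣ 1 := (Nat.dvd_add_right (Dvd.dvd.pow h1 two_ne_zero)).1 hrq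
    exact hr.one_lt.ne' (Nat.dvd_one.1 h2)
  have hu0 : u ≠ 0 := by
    rintro rfl
    have h1 := pow_orderOf_eq_one (0 : L)
    rw [hu, pow_succ, mul_zero] at h1
    exact zero_ne_one h1
  set lam : Lˣ := Units.mk0 u hu0 ^ s with hlam
  have hlamo : orderOf lam = r ^ a := by
    have h1 : orderOf (Units.mk0 u hu0) = r ^ a * s := by
      rw [← orderOf_units, Units.val_mk0, hu, hra]
    rw [hlam, orderOf_pow_of_dvd hs0 (by rw [h1]; exact Dvd.intro_left _ rfl), h1,
      Nat.mul_div_cancel _ (Nat.pos_of_ne_zero hs0)]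
  have hlamQ : ∀ v, Q ((lam : L) * v) = Q v := by
    have hpowQ : ∀ (m : ℕ) (v : L), Q (u ^ m * v) = Q v := by
      intro m
      induction m with
      | zero => intro v; rw [pow_zero, one_mul]
      | succ m ih => intro v; rw [pow_succ', mul_assoc, huQ, ih]
    intro v
    rw [hlam, Units.val_pow_eq_pow_val, Units.val_mk0, hpowQ]
  have hlamQ' : ∀ z ∈ Subgroup.zpowers lam, ∀ v, Q ((z : L) * v) = Q v := by
    intro z hz
    obtain ⟨k, rfl⟩ := (mem_powers_iff_mem_zpowers.2 hz)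
    show ∀ v, Q (((lam ^ k : Lˣ) : L) * v) = Q v
    induction k with
    | zero => intro v; rw [pow_zero, Units.val_one, one_mul]
    | succ k ih =>
      intro v
      rw [pow_succ, Units.val_mul, mul_assoc, ih (Subgroup.npow_mem_zpowers lam k), hlamQ]
  have hlam1 : lam ≠ 1 := by
    intro h
    rw [h, orderOf_one] at hlamo
    exact (Nat.one_lt_pow ha.ne' hr.one_lt).ne hlamo
  have hgen : Algebra.adjoin F {(lam : L)} = ⊤ := by
    refine adjoin_eq_top lam.ne_zero (by rw [orderOf_units, hlamo]) ?_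
    intro i hi hi4 h
    rw [hdL] at hi4
    rw [hcF] at h
    exact hnot i hi hi4 ((dvd_pow_self r ha.ne').trans h)
  -- the torus
  let Z : Subgroup Lˣ := Subgroup.zpowers lam
  have hZ : Nat.card Z = r ^ a := by rw [Nat.card_zpowers, hlamo]
  have hZr : ∀ z : Z, z ^ r ^ a = 1 := fun z => by rw [← hZ]; exact pow_card_eq_one'
  have hmemT : ∀ z : Z × Z, dd (F := F) ((z.1 : Lˣ), (z.2 : Lˣ)) ∈ E (prodForm Q Q) := by
    intro z
    refine Cfsg.Agent.ETable.Orth.mem_E_of_pow hG (dd_mem_O (hlamQ' _ z.1.2) (hlamQ' _ z.2.2)) hodd ?_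
    rw [← map_pow]
    have h1 : (((z.1 : Lˣ), (z.2 : Lˣ)) : Lˣ × Lˣ) ^ r ^ a = 1 := by
      rw [Prod.pow_mk]
      exact Prod.ext (congrArg Subtype.val (hZr z.1)) (congrArg Subtype.val (hZr z.2))
    rw [h1, map_one]
  let T : Z × Z →* E (prodForm Q Q) := MonoidHom.mk' (fun z => ⟨dd ((z.1 : Lˣ), (z.2 : Lˣ)), hmemT z⟩) (fun z w =>
    Subtype.ext (by
      show dd _ = dd _ * dd _
      rw [← map_mul]
      rfl))
  have hT : ∀ z, (T z : (L × L) ≃ₗ[F] (L × L)) = dd ((z.1 : Lˣ), (z.2 : Lˣ)) := fun _ => rfl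
  have hTinj : Function.Injective T := by
    intro z w hzw
    have h5 : dd (F := F) ((z.1 : Lˣ), (z.2 : Lˣ)) = dd ((w.1 : Lˣ), (w.2 : Lˣ)) := by rw [← hT, ← hT, hzw]
    have h6 := dd_injective h5
    exact Prod.ext (Subtype.ext (congrArg Prod.fst h6)) (Subtype.ext (congrArg Prod.snd h6))
  have hcardT : Nat.card T.range = r ^ (2 * a) := by
    rw [← Nat.card_congr (MonoidHom.ofInjective hTinj).toEquiv, Nat.card_prod, hZ, ← pow_add, two_mul]
  let ζ : Z := ⟨lam, Subgroup.mem_zpowers lam⟩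
  have hζ : orderOf ζ = r ^ a := by rw [← hlamo, ← Subgroup.orderOf_coe]
  have hnt : Nontrivial (L × L) := inferInstance
  obtain ⟨c, hcen, hc, hcp, hcr⟩ := ker_facts (p := p) hnd hnt hker
  obtain ⟨g, hgE, hgp, hg1, hgc⟩ := exists_uni (p := p) (F := F) hQ.nondeg (by omega)
  obtain ⟨x₁, u₁, hx₁, hx₁', hu₁, hu₁', hxu⟩ := exists_x1 (p := p) hG hQ hdL hlamo hodd (by
    have h1 : lam ^ (Fintype.card F ^ 2 + 1) = 1 := by
      rw [← orderOf_dvd_iff_pow_eq_one, hlamo, ← hqdef, hra]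
      exact Dvd.intro _ rfl
    rw [← Units.val_pow_eq_pow_val, h1, Units.val_one])
  have hfinH : Finite (E (prodForm Q Q)) := by
    have : Finite ((L × L) ≃ₗ[F] (L × L)) :=
      Finite.of_injective (fun g : (L × L) ≃ₗ[F] (L × L) => (g : L × L → L × L)) DFunLike.coe_injective
    infer_instance
  refine cong_of_cover hr hpp hrp π hπ hcen hc (hcr r hr hr2) hcp T.range (IsPGroup.of_card hcardT)
    (by rw [hfac]; exact hcardT) ?_ ?_
  · intro v hv hvp
    apply Subtype.ext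
    have hv1 : Commute (T (ζ, 1)) v := hv _ ⟨_, rfl⟩
    have hv2 : Commute (T (1, ζ)) v := hv _ ⟨_, rfl⟩
    refine cen_one (p := p) hlam1 hgen ?_ ?_ (congrArg Subtype.val hvp)
    · exact (congrArg Subtype.val hv1.eq).symm
    · exact (congrArg Subtype.val hv2.eq).symm
  · intro D hD hne
    by_cases h0 : ∃ τ, τ * T (ζ, 1) * τ⁻¹ ∈ D
    · by_cases h1 : ∃ τ, τ * x₁ * τ⁻¹ ∈ D
      · exfalso
        obtain ⟨τ₀, h3⟩ := h0
        obtain ⟨τ₁, h4⟩ := h1
        exact two_classes hT hr ha hZ hζ hx₁ hx₁' hD hne h3 h4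
      · push Not at h1
        exact ⟨x₁, u₁, a, by rw [← hx₁, pow_orderOf_eq_one], hu₁, hu₁', hxu, h1⟩
    · push Not at h0
      refine ⟨T (ζ, 1), ⟨g, hgE⟩, a, ?_, Subtype.ext hgp, fun h => hg1 (congrArg Subtype.val h), ?_, h0⟩
      · rw [← map_pow, Prod.pow_mk, hZr, one_pow]
        exact map_one T
      · exact Subtype.ext (hgc lam hlamQ).eq

end Cfsg.Agent.H559.OZ
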