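import Cfsg.Agent.H5.OZ.LocTwo

/-!
# S4842: congruences from defect groups, for a central extension (helper559)

`cong_of_cover` : the criterion `cong_loc` of helper5 for `π : H →* S` with a central kernel of exponent prime to `r p`.
-/

set_option autoImplicit false

namespace Cfsg.Agent.H559.OZ

open Cfsg Cfsg.Agent.H730.OZ

universe u v

section lift

variable {H : Type v} {S : Type u} [Group H] [Group S] {π : H →* S} {c N : ℕ}

theorem kill {k : H} (h1 : k ^ c = 1) (h2 : k ^ N = 1) (hcN : c.Coprime N) : k = 1 := by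
  have h3 := Nat.dvd_gcd (orderOf_dvd_of_pow_eq_one h1) (orderOf_dvd_of_pow_eq_one h2)
  rw [hcN] at h3
  exact orderOf_eq_one_iff.1 (Nat.dvd_one.1 h3)

theorem eq_lift (hcen : ∀ k ∈ π.ker, ∀ h : H, k * h = h * k) (hc : ∀ k ∈ π.ker, k ^ c = 1) (hcN : c.Coprime N)
    {x y : H} (hx : x ^ N = 1) (hy : y ^ N = 1) (h : π x = π y) : x = y := by
  have hk : x * y⁻¹ ∈ π.ker := by
    rw [MonoidHom.mem_ker, map_mul, map_inv, h, mul_inv_cancel]
  have h1 : Commute (x * y⁻¹) y := hcen _ hk y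
  have h2 : (x * y⁻¹) ^ N = 1 := by
    have h3 := h1.mul_pow N
    rw [inv_mul_cancel_right, hx, hy, mul_one] at h3
    exact h3.symm
  exact mul_inv_eq_one.1 (kill (hc _ hk) h2 hcN)

theorem comm_lift (hcen : ∀ k ∈ π.ker, ∀ h : H, k * h = h * k) (hc : ∀ k ∈ π.ker, k ^ c = 1) (hcN : c.Coprime N)
    {x w : H} (hx : x ^ N = 1) (h : Commute (π x) (π w)) : Commute x w := by
  have h1 : w * x * w⁻¹ = x := by
    refine eq_lift hcen hc hcN ?_ hx ?_
    · rw [conj_pow, hx, mul_one, mul_inv_cancel]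
    · rw [map_mul, map_mul, map_inv, ← h.eq, mul_inv_cancel_right]
  show x * w = w * x
  rw [mul_inv_eq_iff_eq_mul] at h1
  exact h1.symm

end lift

variable {H : Type v} {S : Type u} [Group H] [Group S] [Finite S]

/-- **Congruences from defect groups, through a central extension.** -/
theorem cong_of_cover {p r c : ℕ} (hr : r.Prime) (hp : p.Prime) (hrp : r ≠ p) (π : H →* S)
    (hπ : Function.Surjective π) (hcen : ∀ k ∈ π.ker, ∀ h : H, k * h = h * k) (hc : ∀ k ∈ π.ker, k ^ c = 1)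
    (hcr : c.Coprime r) (hcp : c.Coprime p) (R : Subgroup H) (hR : IsPGroup r R)
    (hcard : Nat.card R = r ^ (Nat.card S).factorization r)
    (hC : ∀ u : H, (∀ x ∈ R, Commute x u) → u ^ p = 1 → u = 1)
    (hD : ∀ D : Subgroup H, D ≤ R → D ≠ R → ∃ (x u : H) (k : ℕ), x ^ (r ^ k) = 1 ∧ u ^ p = 1 ∧ u ≠ 1 ∧ Commute x u ∧
      ∀ t : H, t * x * t⁻¹ ∉ D) : Cong p r 0 S := by
  have hrf : Fact r.Prime := ⟨hr⟩
  have hcrk : ∀ k : ℕ, c.Coprime (r ^ k) := fun k => Nat.Coprime.pow_right k hcr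
  have hRr : ∀ x ∈ R, ∃ k : ℕ, x ^ (r ^ k) = 1 := by
    intro x hx
    obtain ⟨k, hk⟩ := hR ⟨x, hx⟩
    exact ⟨k, congrArg Subtype.val hk⟩
  -- two `r`-elements with the same image are equal
  have hinj : ∀ x y : H, (∃ k : ℕ, x ^ (r ^ k) = 1) → (∃ k : ℕ, y ^ (r ^ k) = 1) → π x = π y → x = y := by
    rintro x y ⟨k, hk⟩ ⟨l, hl⟩ h
    refine eq_lift hcen hc (hcrk (k + l)) ?_ ?_ h
    · rw [pow_add, pow_mul, hk, one_pow]
    · rw [pow_add, mul_comm, pow_mul, hl, one_pow]
  -- the Sylow subgroup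
  have hcardR : Nat.card (R.map π) = r ^ (Nat.card S).factorization r := by
    rw [← hcard]
    refine (Nat.card_congr (Equiv.ofBijective (fun x : R => (⟨π x, Subgroup.mem_map_of_mem π x.2⟩ : R.map π)) ⟨?_, ?_⟩)).symm
    · intro x y h
      exact Subtype.ext (hinj _ _ (hRr _ x.2) (hRr _ y.2) (congrArg Subtype.val h))
    · rintro ⟨_, x, hx, rfl⟩
      exact ⟨⟨x, hx⟩, rfl⟩
  let R₀ : Sylow r S := Sylow.ofCard (R.map π) hcardR
  have hR₀ : (R₀ : Subgroup S) = R.map π := rfl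
  have hsyl : ∀ Q : Sylow r S, ∃ s : S, ∀ y : S, y ∈ (Q : Subgroup S) ↔ s * y * s⁻¹ ∈ R.map π := by
    intro Q
    obtain ⟨s, hs⟩ := MulAction.exists_smul_eq S Q R₀
    refine ⟨s, fun y => ?_⟩
    have h1 : (R₀ : Subgroup S) = (s • Q : Sylow r S) := by rw [hs]
    rw [← hR₀, h1, Sylow.smul_def, Sylow.pointwise_smul_def]
    rw [Subgroup.mem_pointwise_smul_iff_inv_smul_mem]
    constructor
    · intro h
      have : (MulAut.conj s)⁻¹ • (s * y * s⁻¹) = y := by
        rw [← map_inv]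
        show MulAut.conj s⁻¹ (s * y * s⁻¹) = y
        rw [MulAut.conj_apply]
        group
      rwa [this]
    · intro h
      have : (MulAut.conj s)⁻¹ • (s * y * s⁻¹) = y := by
        rw [← map_inv]
        show MulAut.conj s⁻¹ (s * y * s⁻¹) = y
        rw [MulAut.conj_apply]
        group
      rwa [this] at h
  refine Cfsg.Agent.H5.OZ.cong_loc hr ?_ ?_
  · intro Q u hu hup
    obtain ⟨s, hs⟩ := hsyl Q
    by_contra hu1
    obtain ⟨k, hk⟩ := hup
    rcases k with _ | k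
    · rw [pow_zero] at hk
      exact hu1 (orderOf_eq_one_iff.1 hk)
    obtain ⟨w, hw⟩ := hπ (s * (u ^ p ^ k) * s⁻¹)
    have hv : orderOf (s * (u ^ p ^ k) * s⁻¹) = p := by
      have h1 : orderOf (s * (u ^ p ^ k) * s⁻¹) = orderOf (u ^ p ^ k) := orderOf_injective (MulAut.conj s).toMonoidHom
        (MulAut.conj s).injective _
      rw [h1, orderOf_pow_of_dvd (pow_pos hp.pos k).ne' (by rw [hk]; exact pow_dvd_pow p (Nat.le_succ k)), hk,
        Nat.pow_div (Nat.le_succ k) hp.pos]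
      simp
    have hwR : ∀ x ∈ R, Commute x w := by
      intro x hx
      obtain ⟨j, hj⟩ := hRr x hx
      refine comm_lift hcen hc (hcrk j) hj ?_
      rw [hw]
      have h2 : s⁻¹ * π x * s ∈ (Q : Subgroup S) := by
        rw [hs]
        have : s * (s⁻¹ * π x * s) * s⁻¹ = π x := by group
        rw [this]
        exact Subgroup.mem_map_of_mem π hx
      have h3 : Commute (s⁻¹ * π x * s) u := Subgroup.mem_centralizer_iff.1 hu _ h2
      have h4 : Commute (s * (s⁻¹ * π x * s) * s⁻¹) (s * (u ^ p ^ k) * s⁻¹) :=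
        (h3.pow_right (p ^ k)).map (MulAut.conj s)
      have h5 : s * (s⁻¹ * π x * s) * s⁻¹ = π x := by group
      rwa [h5] at h4
    have hwp : w ^ p ∈ π.ker := by
      rw [MonoidHom.mem_ker, map_pow, hw]
      exact orderOf_dvd_iff_pow_eq_one.1 (dvd_of_eq hv)
    have h6 : (w ^ c) ^ p = 1 := by
      rw [← pow_mul, mul_comm, pow_mul]
      exact hc _ hwp
    have h7 := hC (w ^ c) (fun x hx => (hwR x hx).pow_right c) h6
    have h8 : p ∣ c := by
      rw [← hv, ← hw]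
      apply orderOf_dvd_of_pow_eq_one
      rw [← map_pow, h7, map_one]
    exact hp.one_lt.ne' (Nat.dvd_one.1 (hcp ▸ Nat.dvd_gcd h8 dvd_rfl))
  · intro D hDp hDs
    obtain ⟨Q, hQ⟩ := hDp.exists_le_sylow
    obtain ⟨s, hs⟩ := hsyl Q
    have hne : ∃ y ∈ (Q : Subgroup S), y ∉ D := by
      by_contra hcon
      push Not at hcon
      exact hDs Q (le_antisymm hcon hQ)
    -- the subgroup `D'`
    set D' : Subgroup H := (((D.map (MulAut.conj s).toMonoidHom).comap π) ⊓ R) with hD'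
    have hmem : ∀ x : H, x ∈ D' ↔ s⁻¹ * π x * s ∈ D ∧ x ∈ R := by
      intro x
      rw [hD', Subgroup.mem_inf, Subgroup.mem_comap, Subgroup.mem_map]
      refine and_congr_left fun _ => ⟨?_, ?_⟩
      · rintro ⟨d, hd, h1⟩
        have h2 : s * d * s⁻¹ = π x := h1
        rw [← h2]
        have : s⁻¹ * (s * d * s⁻¹) * s = d := by group
        rwa [this]
      · intro h
        refine ⟨_, h, ?_⟩
        show s * (s⁻¹ * π x * s) * s⁻¹ = π x
        group
    obtain ⟨x, u, k, hx, hu, hu1, hxu, ht⟩ := hD D' inf_le_right (by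
      intro h
      obtain ⟨y, hy, hyD⟩ := hne
      obtain ⟨x, hx, hxy⟩ := (Subgroup.mem_map.1 ((hs y).1 hy))
      rw [← h] at hx
      have h1 := ((hmem x).1 hx).1
      rw [hxy] at h1
      apply hyD
      have h2 : s⁻¹ * (s * y * s⁻¹) * s = y := by group
      rwa [h2] at h1)
    have hπu : π u ≠ 1 := by
      intro h
      exact hu1 (kill (hc u (MonoidHom.mem_ker.2 h)) hu hcp)
    have hnc : ∀ t : S, t * π x * t⁻¹ ∉ D := by
      intro t hmemD
      have h1 : t * π x * t⁻¹ ∈ (Q : Subgroup S) := hQ hmemD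
      rw [hs] at h1
      obtain ⟨h, hh, h2⟩ := Subgroup.mem_map.1 h1
      obtain ⟨τ, hτ⟩ := hπ (s * t)
      have h3 : τ * x * τ⁻¹ = h := by
        refine hinj _ _ ⟨k, ?_⟩ (hRr h hh) ?_
        · rw [conj_pow, hx, mul_one, mul_inv_cancel]
        · rw [h2, map_mul, map_mul, map_inv, hτ]
          group
      apply ht τ
      rw [hmem]
      refine ⟨?_, by rw [h3]; exact hh⟩
      rw [map_mul, map_mul, map_inv, hτ]
      have h4 : s⁻¹ * (s * t * π x * (s * t)⁻¹) * s = t * π x * t⁻¹ := by group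
      rwa [h4]
    have hπx : (π x) ^ (r ^ k) = 1 := by rw [← map_pow, hx, map_one]
    obtain ⟨j, -, hj⟩ := (Nat.dvd_prime_pow hr).1 (orderOf_dvd_of_pow_eq_one hπx)
    have hπup : (π u) ^ p = 1 := by rw [← map_pow, hu, map_one]
    have hru : ¬ r ∣ orderOf (π u) := by
      intro h
      have h1 := h.trans (orderOf_dvd_of_pow_eq_one hπup)
      exact hrp ((Nat.prime_dvd_prime_iff_eq hr hp).1 h1)
    refine ⟨π x, π x * π u, π x, π x, ⟨1, mul_one _, Commute.one_right _, ⟨j, hj⟩, ?_⟩,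
      ⟨π u, rfl, hxu.map π, ⟨j, hj⟩, hru⟩, ?_, hnc, hnc⟩
    · rw [orderOf_one]
      exact hr.one_lt.ne' ∘ Nat.dvd_one.1
    · intro hcon
      obtain ⟨g, hg⟩ := isConj_iff.1 hcon
      have h1 : (π x * π u) ^ (r ^ k) = 1 := by
        rw [← hg, conj_pow, hπx, mul_one, mul_inv_cancel]
      rw [(hxu.map π).mul_pow, hπx, one_mul] at h1
      refine hπu (kill hπup h1 ?_)
      exact (Nat.Coprime.pow_right k ((Nat.coprime_primes hp hr).2 (Ne.symm hrp)))

end Cfsg.Agent.H559.OZ
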