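import Cfsg.Agent.H559.OZ.Eight
import Cfsg.Agent.H530.OZ.Row

/-!
# S4842, `POmega⁺_8 (q)`, `q ≥ 3`: the exponent is `12` (helper559)

* `mid_of_one` : `0 < m < 2 v` for a character with exactly one class of zeros;
* `x12` : `e = 1` and `m = 12 f`, `q = p ^ f`.
-/

set_option autoImplicit false

namespace Cfsg.Agent.H559.OZ

open Cfsg Cfsg.Agent.Characters Cfsg.Agent.H730.OZ Cfsg.Agent.LieClassical.OrthForms Cfsg.Agent.H182.Sign
open Cfsg.Agent.H182.Orth Cfsg.Agent.H530.OZ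

universe u

theorem mid_of_one {G : Type u} [Group G] [Finite G] (hs : IsSimpleGroup G) {p : ℕ} (hp : p.Prime) {v : ℕ}
    (hv : (Nat.card G).factorization p = v) (hv0 : v ≠ 0) (hK : Kaw p G)
    (h0 : ¬ p ^ (2 * v) - 1 ∣ Nat.card G) {χ : G → ℂ} (hχ : IsIrrCharacter G χ) (hz : OneZero χ) {m : ℕ} {e : ℤ}
    (he : e = 1 ∨ e = -1) (hsum : ∑ᶠ u ∈ pSet p G, χ u = (e : ℂ) * (p : ℂ) ^ m * χ 1) : 0 < m ∧ m < 2 * v := by
  classical
  have := Fintype.ofFinite G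
  have hd : ((charDegree χ : ℕ) : ℂ) = χ 1 := H686.CharKit.charDegree_cast (Core.isIrr_isCharacter hχ)
  have hd0 : 0 < charDegree χ := H686.CharKit.charDegree_pos ⟨χ, hχ⟩
  have hpG : p ∣ Nat.card G := by
    by_contra h
    rw [Nat.factorization_eq_zero_of_not_dvd h] at hv
    exact hv0 hv.symm
  obtain ⟨hmle, hmtop⟩ := hK.top hp hχ he hsum
  rw [hv] at hmle hmtop
  constructor
  · rcases Nat.eq_zero_or_pos m with hm0 | hm0
    · exfalso
      refine h0 ?_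
      have h1 := OneZero.dvd_of_degree hp hpG hχ hz ?_
      · rwa [hK.card, hv] at h1
      · obtain ⟨z, hzz⟩ := frob hp hχ
        rw [hsum, hm0, pow_zero, mul_one, ← hd] at hzz
        have h2 : e * (charDegree χ : ℤ) = ((p ^ (Nat.card G).factorization p : ℕ) : ℤ) * z := by
          exact_mod_cast hzz
        have h3 : ((p ^ (Nat.card G).factorization p : ℕ) : ℤ) ∣ (charDegree χ : ℤ) := by
          rcases he with rfl | rfl
          · exact ⟨z, by rw [← h2, one_mul]⟩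
          · exact ⟨-z, by rw [mul_neg, ← h2]; ring⟩
        exact_mod_cast h3
    · exact hm0
  · rcases Nat.lt_or_ge m (2 * v) with hlt | hge
    · exact hlt
    · exfalso
      have hall := hmtop (le_antisymm hmle hge)
      obtain ⟨u, hu⟩ := @exists_prime_orderOf_dvd_card' G _ _ p ⟨hp⟩ hpG
      have hu1 : χ u = χ 1 := hall u ⟨1, by rw [hu, pow_one]⟩
      set K := H686.CharKit.chKer (⟨χ, hχ⟩ : IrrCharacter G) with hKdef
      have huK : u ∈ K := H686.CharKit.mem_chKer.2 hu1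
      have hKtop : K = ⊤ := by
        rcases hs.eq_bot_or_eq_top_of_normal K inferInstance with h | h
        · exfalso
          rw [h, Subgroup.mem_bot] at huK
          rw [huK, orderOf_one] at hu
          exact hp.one_lt.ne hu
        · exact h
      obtain ⟨x, hx0, -⟩ := hz
      have hxK : x ∈ K := by rw [hKtop]; exact Subgroup.mem_top _
      have hx1 : χ x = χ 1 := H686.CharKit.mem_chKer.1 hxK
      rw [hx0, ← hd] at hx1
      have : (charDegree χ : ℂ) ≠ 0 := by exact_mod_cast hd0.ne'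
      exact this hx1.symm

/-- The arithmetic. -/
theorem end_twelve {f m r₁ r₂ p : ℕ} (hp : 1 ≤ p) (hf : 0 < f) (h1 : Prim p (6 * f) r₁) (h2 : Prim p (4 * f) r₂)
    {e : ℤ} (he : e = 1 ∨ e = -1) (hm : 0 < m) (hm' : m < 24 * f) (c1 : (r₁ : ℤ) ∣ e * (p : ℤ) ^ m - (p : ℤ) ^ 0)
    (c2 : (r₂ : ℤ) ∣ e * (p : ℤ) ^ m - (p : ℤ) ^ 0) : e = 1 ∧ m = 12 * f := by
  rcases he with rfl | rfl
  · refine ⟨rfl, ?_⟩
    obtain ⟨x, hx⟩ := h1.pos hp c1
    obtain ⟨y, hy⟩ := h2.pos hp c2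
    have h3 : 6 * x = 4 * y := by
      apply Nat.eq_of_mul_eq_mul_left hf
      linarith
    have hx4 : x < 4 := by
      by_contra hcon
      push Not at hcon
      have h5 : 6 * f * 4 ≤ 6 * f * x := Nat.mul_le_mul_left _ hcon
      omega
    have hx0 : 0 < x := Nat.pos_of_ne_zero (by rintro rfl; omega)
    have hx2 : x = 2 := by omega
    rw [hx, hx2]
    ring
  · exfalso
    obtain ⟨⟨x, hx⟩, h3⟩ := h1.neg (by omega) hp c1
    obtain ⟨⟨y, hy⟩, h4⟩ := h2.neg (by omega) hp c2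
    have h5 : 6 * x = 4 * y := by
      apply Nat.eq_of_mul_eq_mul_left hf
      linarith
    obtain ⟨z, rfl⟩ : ∃ z, x = 2 * z := ⟨x / 2, by omega⟩
    apply h3
    refine ⟨z, ?_⟩
    have h6 : 2 * m = 2 * (6 * f * z) := by
      rw [hx]
      ring
    exact Nat.eq_of_mul_eq_mul_left two_pos h6

/-- The exponent of a prime dividing `q ^ 2 + 1`. -/
theorem fac_four {q r c d : ℕ} (hr : r.Prime) (hq : 2 ≤ q) (hd : ¬ r ∣ d) (hc : c ≠ 0) (h0 : ¬ r ∣ q)
    (h2 : ¬ r ∣ q ^ 2 - 1) (h6 : ¬ r ∣ q ^ 6 - 1)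
    (h : d * c = q ^ 12 * (q ^ 4 - 1) * ((q ^ 2 - 1) * (q ^ 4 - 1) * (q ^ 6 - 1))) :
    c.factorization r = 2 * (q ^ 2 + 1).factorization r := by
  have h4 : q ^ 4 - 1 = (q ^ 2 + 1) * (q ^ 2 - 1) := by
    have h5 := Nat.sq_sub_sq (q ^ 2) 1
    rw [one_pow, ← pow_mul] at h5
    exact h5
  have hq2 : 2 * 2 ≤ q ^ 2 := by rw [pow_two]; exact Nat.mul_le_mul hq hq
  have hd0 : d ≠ 0 := by rintro rfl; exact hd (dvd_zero r)
  have e12 : q ^ 12 ≠ 0 := pow_ne_zero _ (by omega)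
  have e2 : q ^ 2 - 1 ≠ 0 := by omega
  have e2' : q ^ 2 + 1 ≠ 0 := Nat.succ_ne_zero _
  have e4 : (q ^ 2 + 1) * (q ^ 2 - 1) ≠ 0 := mul_ne_zero e2' e2
  have e6 : q ^ 6 - 1 ≠ 0 := by
    intro h7
    exact h6 (h7 ▸ dvd_zero r)
  rw [h4] at h
  have h7 : (d * c).factorization r =
      (q ^ 12 * ((q ^ 2 + 1) * (q ^ 2 - 1)) * ((q ^ 2 - 1) * ((q ^ 2 + 1) * (q ^ 2 - 1)) * (q ^ 6 - 1))).factorization r := by
    rw [h]
  rw [Nat.factorization_mul hd0 hc, Nat.factorization_mul (mul_ne_zero e12 e4) (mul_ne_zero (mul_ne_zero e2 e4) e6),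
    Nat.factorization_mul e12 e4, Nat.factorization_mul (mul_ne_zero e2 e4) e6, Nat.factorization_mul e2 e4,
    Nat.factorization_mul e2' e2] at h7
  simp only [Finsupp.add_apply] at h7
  rw [Nat.factorization_eq_zero_of_not_dvd hd, Nat.factorization_eq_zero_of_not_dvd h2,
    Nat.factorization_eq_zero_of_not_dvd h6,
    Nat.factorization_eq_zero_of_not_dvd (fun h8 => h0 (hr.dvd_of_dvd_pow h8))] at h7
  omega

/-- **`POmega⁺_8 (q)`, `q ≥ 3` : the exponent is `12`.** -/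
theorem x12 {S : Type u} [Group S] [Finite S] (hs : IsSimpleGroup S) {F : Type} [Field F] [Fintype F]
    (h3 : 3 ≤ Fintype.card F) (i : S ≃* POmega F (quadFormPlus 4 F)) {p f : ℕ} (hp : p.Prime)
    (hcard : Fintype.card F = p ^ f) (hK : Kaw p S) {χ : S → ℂ} (hχ : IsIrrCharacter S χ) (h0 : OneZero χ) {m : ℕ}
    {e : ℤ} (he : e = 1 ∨ e = -1) (hsum : ∑ᶠ u ∈ pSet p S, χ u = (e : ℂ) * (p : ℂ) ^ m * χ 1) :
    e = 1 ∧ m = 12 * f := by
  have hpf : Fact p.Prime := ⟨hp⟩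
  have hf : 0 < f := Nat.pos_of_ne_zero (by rintro rfl; rw [hcard, pow_zero] at h3; omega)
  have hch : CharP F p := by
    obtain ⟨p', hp'⟩ := CharP.exists F
    obtain ⟨⟨f', hf'⟩, hpp', hcard'⟩ := FiniteField.card F p'
    simp only [PNat.mk_coe] at hcard'
    rw [hcard] at hcard'
    have h1 : p ∣ p' ^ f' := by rw [← hcard']; exact dvd_pow_self p hf.ne'
    have h2 : p = p' := (Nat.prime_dvd_prime_iff_eq hp hpp').1 (hp.dvd_of_dvd_pow h1)
    rw [h2]
    exact hp'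
  have hS0 := S0293.result hcard 4 (le_refl 4)
  have hcS : Nat.card (POmega F (quadFormPlus 4 F)) = Nat.card S := (Nat.card_congr i.toEquiv).symm
  rw [hcS] at hS0
  have hfn : 0 < f * 4 := Nat.mul_pos hf (by omega)
  obtain ⟨ho1, ho2⟩ := order_facts hp hf (le_refl 4) (Nat.card_pos (α := S)).ne' (d := Nat.gcd 4 ((p ^ f) ^ 4 - 1))
    (w := (p ^ f) ^ 4 - 1) (fun h => not_dvd_pow_sub hp hfn (by rw [pow_mul]; exact h.trans (Nat.gcd_dvd_right _ _)))
    (fun h => not_dvd_pow_sub hp hfn (by rw [pow_mul]; exact h)) (by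
      have h4 : (p ^ f) ^ (2 * 4) - 1 = ((p ^ f) ^ 4 + 1) * ((p ^ f) ^ 4 - 1) := by
        rw [mul_comm 2, pow_mul]
        have := Nat.sq_sub_sq ((p ^ f) ^ 4) 1
        simpa using this
      rw [h4]
      exact Dvd.intro_left _ rfl) hS0
  obtain ⟨hm0, hm1⟩ := mid_of_one hs hp ho1 (by omega) hK ho2 hχ h0 he hsum
  have i' : POmega F ⇑(plusForm 4 F) ≃* S := by
    rw [coe_plusForm]
    exact i.symm
  have hR : Sg (plusForm 4 F) 4 1 := sg_plusForm 4
  -- the prime of order `6`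
  obtain ⟨r₁, hr₁⟩ := exists_prim (p := p) (n := 2 * 3 * f) hp.two_le (by omega) (by
    rintro ⟨rfl, h6⟩
    have hf1 : f = 1 := by omega
    rw [hcard, hf1] at h3
    omega)
  have hc₁ : Cong p r₁ 0 S := by
    obtain ⟨h1, h2⟩ := hr₁.conds hf
    obtain ⟨L, _, _, _, Q', u, hQ', -, -⟩ := exists_torusM F (k := 1) one_ne_zero
    exact IsoAt.cong hp hr₁.prime hr₁.ne (isoM (p := p) (k := 3) hQ' (Or.inr rfl) (by omega)
      (fun h => absurd h one_ne_zero) (by simpa using hR) i' hr₁.prime (by rw [hcard]; exact h1)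
      (by rw [hcard]; exact h2))
  -- the prime of order `4`
  obtain ⟨r₂, hr₂⟩ := exists_prim (p := p) (n := 2 * 2 * f) hp.two_le (by omega) (by omega)
  have hc₂ : Cong p r₂ 0 S := by
    obtain ⟨h1, h2⟩ := hr₂.conds hf
    have hr22 : r₂ ≠ 2 := (hr₂.two_lt (by omega)).ne'
    have hq0 : (p ^ f) ^ 2 + 1 ≠ 0 := Nat.succ_ne_zero _
    refine cong_eight (p := p) (a := ((p ^ f) ^ 2 + 1).factorization r₂)
      (s := ((p ^ f) ^ 2 + 1) / r₂ ^ ((p ^ f) ^ 2 + 1).factorization r₂) hR i' hr₂.prime hr22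
      (hr₂.prime.factorization_pos_of_dvd hq0 h1) (by rw [hcard]; exact (Nat.ordProj_mul_ordCompl_eq_self _ _).symm) ?_
    refine fac_four (d := Nat.gcd 4 ((p ^ f) ^ 4 - 1)) hr₂.prime (by rw [← hcard]; omega) ?_
      (Nat.card_pos (α := S)).ne' (fun h => hr₂.not_dvd_pow f h) (h2 2 two_pos (by omega)) ?_ ?_
    · intro h
      have h5 := (Nat.prime_dvd_prime_iff_eq hr₂.prime Nat.prime_two).1
        (hr₂.prime.dvd_of_dvd_pow (m := 2) (n := 2) (h.trans (Nat.gcd_dvd_left _ _)))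
      exact hr22 h5
    · rw [← pow_mul, hr₂.iff]
      rintro ⟨y, hy⟩
      have h5 : 6 = 4 * y := by
        apply Nat.eq_of_mul_eq_mul_left hf
        linarith
      omega
    · rw [hS0]
      simp only [Finset.prod_range_succ, Finset.prod_range_zero]
      norm_num
  exact end_twelve hp.one_le hf hr₁ hr₂ he hm0 (by omega) (hc₁ χ hχ h0 m e he hsum) (hc₂ χ hχ h0 m e he hsum)

/-- **`POmega⁺_8 (q)`, `q ≥ 3` : the sum over the `p`-elements is `q ^ 12 χ(1)`.** -/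
theorem sum_twelve {S : Type u} [Group S] [Finite S] (hs : IsSimpleGroup S) {F : Type} [Field F] [Fintype F]
    (h3 : 3 ≤ Fintype.card F) (i : S ≃* POmega F (quadFormPlus 4 F)) {p f : ℕ} (hp : p.Prime)
    (hcard : Fintype.card F = p ^ f) (hK : Kaw p S) {χ : S → ℂ} (hχ : IsIrrCharacter S χ) (h0 : OneZero χ) :
    ∑ᶠ u ∈ pSet p S, χ u = (p : ℂ) ^ (12 * f) * χ 1 := by
  obtain ⟨m, e, he, hsum⟩ := hK.sum χ hχ
  obtain ⟨rfl, rfl⟩ := x12 hs h3 i hp hcard hK hχ h0 he hsum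
  rw [hsum, Int.cast_one, one_mul]

end Cfsg.Agent.H559.OZ
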