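import Cfsg.Agent.H530.OZ.Geo
import Cfsg.Agent.H559.OZ.LocCov

/-!
# S4842, `POmega⁺_8`: an odd prime dividing `q ^ 2 + 1` (helper559)

`cong_eight` : `Cong p r 0 S` for `S ≃* POmega F R`, `R` of sign `+` in dimension 8 and `r ∣ q ^ 2 + 1` an odd prime.
-/

set_option autoImplicit false

namespace Cfsg.Agent.H559.OZ

open Module QuadraticMap Cfsg Subgroup
open Cfsg.Agent.LieClassical.OrthCore Cfsg.Agent.LieClassical.OrthTrans Cfsg.Agent.H890.SpParity
open Cfsg.Agent.LieClassical.OrthFinite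
open Cfsg.Agent.H182.Sign Cfsg.Agent.H182.Orth Cfsg.Agent.H530.CJ Cfsg.Agent.H93.CJ Cfsg.Agent.H93.PReg
open Cfsg.Agent.H530.OZ Cfsg.Agent.H730.OZ

universe u

section ker

variable {F V : Type*} [Field F] [AddCommGroup V] [Module F V] {Q : QuadraticForm F V} {S : Type*} [Group S]

/-- The kernel of `E Q → S`. -/
theorem ker_facts {p : ℕ} [hp : Fact p.Prime] [CharP F p] (hnd : Nondeg Q) (hnt : Nontrivial V) {π : E Q →* S}
    (hker : ∀ k : E Q, k ∈ π.ker ↔ ∃ a : F, ∀ v, (k : V ≃ₗ[F] V) v = a • v) :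
    ∃ c : ℕ, (∀ k ∈ π.ker, ∀ h : E Q, k * h = h * k) ∧ (∀ k ∈ π.ker, k ^ c = 1) ∧ c.Coprime p ∧
      ∀ r : ℕ, r.Prime → r ≠ 2 → c.Coprime r := by
  have hk2 : ∀ k ∈ π.ker, (k ^ 2 = 1) ∧ (p = 2 → k = 1) := by
    intro k hk
    obtain ⟨a, ha⟩ := (hker k).1 hk
    obtain ⟨w, hw⟩ : ∃ w : V, Q w ≠ 0 := by
      by_contra hcon
      push Not at hcon
      obtain ⟨v, hv⟩ := exists_ne (0 : V)
      exact hv (hnd _ fun y => by rw [QuadraticMap.polar, hcon, hcon, hcon, sub_zero, sub_zero])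
    have h1 := E_le_O k.2 w
    rw [ha, QuadraticMap.map_smul, smul_eq_mul] at h1
    have h2 : a * a = 1 := by
      apply mul_right_cancel₀ hw
      rw [h1, one_mul]
    constructor
    · apply Subtype.ext
      show (k : V ≃ₗ[F] V) ^ 2 = 1
      ext v
      rw [pow_two, LinearEquiv.mul_apply, ha, ha, smul_smul, h2, one_smul]
      rfl
    · rintro rfl
      have h3 : a = 1 := by
        have h4 : (a - 1) ^ 2 = 0 := by
          rw [sub_pow_char, one_pow, pow_two, h2, sub_self]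
        exact sub_eq_zero.1 (pow_eq_zero_iff two_ne_zero |>.1 h4)
      apply Subtype.ext
      ext v
      rw [ha, h3, one_smul]
      rfl
  have hcen : ∀ k ∈ π.ker, ∀ h : E Q, k * h = h * k := by
    intro k hk h
    obtain ⟨a, ha⟩ := (hker k).1 hk
    apply Subtype.ext
    ext v
    show (k : V ≃ₗ[F] V) ((h : V ≃ₗ[F] V) v) = (h : V ≃ₗ[F] V) ((k : V ≃ₗ[F] V) v)
    rw [ha, ha, map_smul]
  by_cases h2 : p = 2
  · exact ⟨1, hcen, fun k hk => by rw [pow_one]; exact (hk2 k hk).2 h2, Nat.coprime_one_left _,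
      fun r _ _ => Nat.coprime_one_left _⟩
  · exact ⟨2, hcen, fun k hk => (hk2 k hk).1, (Nat.coprime_primes Nat.prime_two hp.out).2 (Ne.symm h2),
      fun r hr hr2 => (Nat.coprime_primes Nat.prime_two hr).2 (Ne.symm hr2)⟩

end ker

section siegel

variable {F V : Type*} [Field F] [AddCommGroup V] [Module F V] {Q : QuadraticForm F V}

theorem siegel_pow {u w : V} (hu : Q u = 0) (hw : polar Q u w = 0) (k : ℕ) :
    ∃ h : polar Q u (k • w) = 0, siegel Q u w hu hw ^ k = siegel Q u (k • w) hu h := by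
  have h : ∀ k : ℕ, polar Q u (k • w) = 0 := by
    intro k
    rw [← Nat.cast_smul_eq_nsmul F, polar_smul_right, hw, smul_zero]
  refine ⟨h k, ?_⟩
  induction k with
  | zero =>
    ext v
    rw [siegel_apply, pow_zero, zero_smul, smul_zero, polar_zero_left, zero_smul, QuadraticMap.map_zero, zero_mul,
      zero_smul]
    simp
  | succ k ih =>
    rw [pow_succ, ih, siegel_mul hu (h k) hw (by rw [← succ_nsmul]; exact h (k + 1))]
    congr 1
    exact (succ_nsmul w k).symm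

theorem siegel_pow_char {p : ℕ} [CharP F p] {u w : V} (hu : Q u = 0) (hw : polar Q u w = 0) :
    siegel Q u w hu hw ^ p = 1 := by
  obtain ⟨h, h1⟩ := siegel_pow hu hw p
  rw [h1]
  ext v
  have h2 : p • w = 0 := by
    rw [← Nat.cast_smul_eq_nsmul F, CharP.cast_eq_zero, zero_smul]
  rw [siegel_apply]
  simp [h2]

end siegel

section unip

variable {F L : Type} [Field F] [Field L] [Algebra F L]

/-- The map `(a, b) ↦ (a + s σ b, b)`. -/
def us (σ : L ≃ₐ[F] L) (s : L) : (L × L) ≃ₗ[F] (L × L) where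
  toFun v := (v.1 + s * σ v.2, v.2)
  invFun v := (v.1 - s * σ v.2, v.2)
  map_add' v w := by
    refine Prod.ext ?_ rfl
    show v.1 + w.1 + s * σ (v.2 + w.2) = (v.1 + s * σ v.2) + (w.1 + s * σ w.2)
    rw [map_add]
    ring
  map_smul' c v := by
    refine Prod.ext ?_ rfl
    show c • v.1 + s * σ (c • v.2) = c • (v.1 + s * σ v.2)
    rw [map_smul, smul_add, mul_smul_comm]
  left_inv v := by
    refine Prod.ext ?_ rfl
    show v.1 + s * σ v.2 - s * σ v.2 = v.1
    ring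
  right_inv v := by
    refine Prod.ext ?_ rfl
    show v.1 - s * σ v.2 + s * σ v.2 = v.1
    ring

theorem us_apply (σ : L ≃ₐ[F] L) (s : L) (v : L × L) : us σ s v = (v.1 + s * σ v.2, v.2) := rfl

theorem us_mul (σ : L ≃ₐ[F] L) (s s' : L) : us σ s * us σ s' = us σ (s + s') := by
  refine LinearEquiv.ext fun v => Prod.ext ?_ rfl
  show v.1 + s' * σ v.2 + s * σ v.2 = v.1 + (s + s') * σ v.2
  ring

theorem us_zero (σ : L ≃ₐ[F] L) : us σ 0 = 1 := by
  refine LinearEquiv.ext fun v => Prod.ext ?_ rfl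
  show v.1 + 0 * σ v.2 = v.1
  ring

theorem us_pow (σ : L ≃ₐ[F] L) (s : L) (k : ℕ) : us σ s ^ k = us σ (k * s) := by
  induction k with
  | zero => rw [pow_zero, Nat.cast_zero, zero_mul, us_zero]
  | succ k ih =>
    rw [pow_succ, ih, us_mul]
    congr 1
    push_cast
    ring

theorem us_inv (σ : L ≃ₐ[F] L) (s : L) : (us σ s)⁻¹ = us σ (-s) := by
  rw [inv_eq_iff_mul_eq_one, us_mul, add_neg_cancel, us_zero]

theorem us_ne_one {σ : L ≃ₐ[F] L} {s : L} (hs : s ≠ 0) : us σ s ≠ 1 := by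
  intro h
  have h1 := congrArg Prod.fst (LinearEquiv.congr_fun h (0, 1))
  have h2 : (0 : L) + s * σ 1 = 0 := h1
  rw [map_one, mul_one, zero_add] at h2
  exact hs h2

theorem dw_us (σ : L ≃ₐ[F] L) (s : L) (g : Lˣ) :
    (dw g : (L × L) ≃ₗ[F] (L × L)) * us σ s = us σ (g * σ g * s) * dw g := by
  refine LinearEquiv.ext fun v => Prod.ext ?_ rfl
  show (g : L) * (v.1 + s * σ v.2) = g * v.1 + g * σ g * s * σ (((g⁻¹ : Lˣ) : L) * v.2)
  rw [map_mul]
  have h1 : σ (g : L) * σ ((g⁻¹ : Lˣ) : L) = 1 := by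
    rw [← map_mul, Units.mul_inv, map_one]
  linear_combination (-(g : L) * s * σ v.2) * h1

theorem dw_comm_us {σ : L ≃ₐ[F] L} (s : L) {g : Lˣ} (hg : (g : L) * σ g = 1) :
    Commute (dw g : (L × L) ≃ₗ[F] (L × L)) (us σ s) := by
  show _ * _ = _ * _
  rw [dw_us, hg, one_mul]

theorem commutator_dw_us (σ : L ≃ₐ[F] L) (s : L) (g : Lˣ) :
    (dw g : (L × L) ≃ₗ[F] (L × L)) * us σ s * (dw g)⁻¹ * (us σ s)⁻¹ = us σ ((g * σ g - 1) * s) := by
  rw [dw_us, mul_inv_cancel_right, us_inv, us_mul]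
  congr 1
  ring

theorem us_mem_O {σ : L ≃ₐ[F] L} (hσ : ∀ x, σ (σ x) = x) (t : L) : us σ (t - σ t) ∈ O (tq F L) := by
  intro v
  rw [us_apply, tq_apply, tq_apply]
  show Algebra.trace F L ((v.1 + (t - σ t) * σ v.2) * v.2) = Algebra.trace F L (v.1 * v.2)
  have h1 : (v.1 + (t - σ t) * σ v.2) * v.2 = v.1 * v.2 + (t * (v.2 * σ v.2) - σ (t * (v.2 * σ v.2))) := by
    rw [map_mul, map_mul, hσ]
    ring
  rw [h1, map_add, map_sub, Algebra.trace_eq_of_algEquiv, sub_self, add_zero]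

end unip

section torus

variable {F L : Type} [Field F] [Field L] [Algebra F L]

/-- Diagonal maps. -/
def dd : Lˣ × Lˣ →* ((L × L) ≃ₗ[F] (L × L)) where
  toFun a := (mulL F (a.1 : L) a.1.ne_zero).prodCongr (mulL F (a.2 : L) a.2.ne_zero)
  map_one' := by
    refine LinearEquiv.ext fun v => Prod.ext ?_ ?_
    · show ((1 : Lˣ) : L) * v.1 = v.1
      rw [Units.val_one, one_mul]
    · show ((1 : Lˣ) : L) * v.2 = v.2
      rw [Units.val_one, one_mul]
  map_mul' a b := by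
    refine LinearEquiv.ext fun v => Prod.ext ?_ ?_
    · show ((a.1 * b.1 : Lˣ) : L) * v.1 = a.1 * (b.1 * v.1)
      rw [Units.val_mul, mul_assoc]
    · show ((a.2 * b.2 : Lˣ) : L) * v.2 = a.2 * (b.2 * v.2)
      rw [Units.val_mul, mul_assoc]

theorem dd_apply (a : Lˣ × Lˣ) (v : L × L) : dd (F := F) a v = ((a.1 : L) * v.1, (a.2 : L) * v.2) := rfl

theorem dd_injective : Function.Injective (dd : Lˣ × Lˣ →* ((L × L) ≃ₗ[F] (L × L))) := by
  intro a b h
  have h1 := LinearEquiv.congr_fun h (1, 1)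
  rw [dd_apply, dd_apply] at h1
  refine Prod.ext (Units.ext ?_) (Units.ext ?_)
  · have h2 := congrArg Prod.fst h1
    simpa using h2
  · have h2 := congrArg Prod.snd h1
    simpa using h2

theorem dd_mem_O [Finite F] [Finite L] {Q : QuadraticForm F L} {a : Lˣ × Lˣ} (h1 : ∀ v, Q ((a.1 : L) * v) = Q v)
    (h2 : ∀ v, Q ((a.2 : L) * v) = Q v) : dd a ∈ O (prodForm Q Q) := by
  intro v
  rw [prodForm_apply, prodForm_apply, dd_apply]
  show Q ((a.1 : L) * v.1) + Q ((a.2 : L) * v.2) = _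
  rw [h1, h2]

/-- The centralizer of the torus. -/
theorem cen_torus [Finite L] {lam : Lˣ} (h1 : lam ≠ 1) (hgen : Algebra.adjoin F {(lam : L)} = ⊤)
    {g : (L × L) ≃ₗ[F] (L × L)} (hg1 : Commute g (dd (lam, 1))) (hg2 : Commute g (dd (1, lam))) :
    ∃ a b : L, ∀ v, g v = (a * v.1, b * v.2) := by
  have hfd : FiniteDimensional F L := Module.Finite.of_finite
  have e1 : (dd (lam, 1) : (L × L) ≃ₗ[F] (L × L)) =
      (mulL F (lam : L) lam.ne_zero).prodCongr (LinearEquiv.refl F L) := by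
    refine LinearEquiv.ext fun v => Prod.ext rfl ?_
    show ((1 : Lˣ) : L) * v.2 = v.2
    rw [Units.val_one, one_mul]
  have hz : ∀ v : L, mulL F (lam : L) lam.ne_zero v = v → v = 0 := by
    intro v hv
    rw [mulL_apply] at hv
    have h2 : ((lam : L) - 1) * v = 0 := by linear_combination hv
    refine (mul_eq_zero.1 h2).resolve_left fun h3 => h1 (Units.ext ?_)
    exact sub_eq_zero.1 h3
  rw [e1] at hg1
  obtain ⟨t, s, rfl⟩ := block hz hg1
  have ht : ∀ v, t ((lam : L) * v) = lam * t v := by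
    intro v
    exact congrArg Prod.fst (LinearEquiv.congr_fun hg1.eq (v, 0))
  have hs : ∀ v, s ((lam : L) * v) = lam * s v := by
    intro v
    exact congrArg Prod.snd (LinearEquiv.congr_fun hg2.eq (0, v))
  refine ⟨t 1, s 1, fun v => Prod.ext ?_ ?_⟩
  · exact eq_mul' hgen (q := t.toLinearMap) ht v.1
  · exact eq_mul' hgen (q := s.toLinearMap) hs v.2

/-- An element of order `p` centralizing the torus is trivial. -/
theorem cen_one [Finite L] {p : ℕ} [Fact p.Prime] [CharP F p] {lam : Lˣ} (h1 : lam ≠ 1)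
    (hgen : Algebra.adjoin F {(lam : L)} = ⊤)
    {g : (L × L) ≃ₗ[F] (L × L)} (hg1 : Commute g (dd (lam, 1))) (hg2 : Commute g (dd (1, lam))) (hp : g ^ p = 1) :
    g = 1 := by
  have hchL : CharP L p := charP_of_injective_algebraMap (algebraMap F L).injective p
  obtain ⟨a, b, hab⟩ := cen_torus h1 hgen hg1 hg2
  have hpow : ∀ (k : ℕ) (v : L × L), (g ^ k) v = (a ^ k * v.1, b ^ k * v.2) := by
    intro k
    induction k with
    | zero => intro v; rw [pow_zero, pow_zero, pow_zero, one_mul, one_mul]; rfl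
    | succ k ih =>
      intro v
      rw [pow_succ, LinearEquiv.mul_apply, hab, ih, pow_succ, pow_succ, mul_assoc, mul_assoc]
  have h2 := hpow p (1, 1)
  rw [hp] at h2
  have key : ∀ c : L, c ^ p = 1 → c = 1 := by
    intro c hc
    have h5 : (c - 1) ^ p = 0 := by rw [sub_pow_char, one_pow, hc, sub_self]
    exact sub_eq_zero.1 (pow_eq_zero_iff (Fact.out : p.Prime).ne_zero |>.1 h5)
  have ha : a = 1 := key a (by
    have h3 : (1 : L) = a ^ p * 1 := congrArg Prod.fst h2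
    rw [mul_one] at h3
    exact h3.symm)
  have hb : b = 1 := key b (by
    have h3 : (1 : L) = b ^ p * 1 := congrArg Prod.snd h2
    rw [mul_one] at h3
    exact h3.symm)
  refine LinearEquiv.ext fun v => ?_
  rw [hab, ha, hb, one_mul, one_mul]
  rfl

end torus

section classes

variable {F L : Type} [Field F] [Finite F] [Field L] [Finite L] [Algebra F L] {Q : QuadraticForm F L}
  {Z : Subgroup Lˣ} {T : Z × Z →* E (prodForm Q Q)} {r a : ℕ}

omit [Finite F] [Finite L] in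
theorem top_of_order {G : Type*} [Group G] [Finite G] {m : ℕ} (hG : Nat.card G = m) {z : G} (hz : orderOf z = m)
    {D : Subgroup G} (hD : z ∈ D) : D = ⊤ := by
  rw [eq_top_iff, ← Subgroup.eq_top_of_card_eq (Subgroup.zpowers z) (by rw [Nat.card_zpowers, hz, hG]),
    Subgroup.zpowers_le]
  exact hD

omit [Finite F] in
/-- A proper subgroup of the torus misses one of two classes. -/
theorem two_classes (hT : ∀ z, (T z : (L × L) ≃ₗ[F] (L × L)) = dd ((z.1 : Lˣ), (z.2 : Lˣ))) (hr : r.Prime)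
    (ha : 0 < a) (hZ : Nat.card Z = r ^ a) {ζ : Z} (hζ : orderOf ζ = r ^ a) {x₁ : E (prodForm Q Q)}
    (h1 : orderOf x₁ = r ^ a)
    (h2 : ∀ (k : ℕ) (v : L × L), v ≠ 0 → ((x₁ ^ k : E (prodForm Q Q)) : (L × L) ≃ₗ[F] (L × L)) v = v → x₁ ^ k = 1)
    {D : Subgroup (E (prodForm Q Q))} (hD : D ≤ T.range) (hne : D ≠ T.range) {τ₀ τ₁ : E (prodForm Q Q)}
    (h3 : τ₀ * T (ζ, 1) * τ₀⁻¹ ∈ D) (h4 : τ₁ * x₁ * τ₁⁻¹ ∈ D) : False := by
  have hTinj : Function.Injective T := by
    intro z w hzw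
    have h5 : dd (F := F) ((z.1 : Lˣ), (z.2 : Lˣ)) = dd ((w.1 : Lˣ), (w.2 : Lˣ)) := by rw [← hT, ← hT, hzw]
    have h6 := dd_injective h5
    exact Prod.ext (Subtype.ext (congrArg Prod.fst h6)) (Subtype.ext (congrArg Prod.snd h6))
  have hTfix : ∀ (z : Z × Z) (v : L × L), (T z : (L × L) ≃ₗ[F] (L × L)) v = v → (v.1 ≠ 0 → z.1 = 1) ∧
      (v.2 ≠ 0 → z.2 = 1) := by
    intro z v h
    rw [hT, dd_apply] at h
    constructor
    · intro hv
      apply Subtype.ext
      apply Units.ext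
      exact mul_right_cancel₀ hv ((congrArg Prod.fst h).trans (one_mul v.1).symm)
    · intro hv
      apply Subtype.ext
      apply Units.ext
      exact mul_right_cancel₀ hv ((congrArg Prod.snd h).trans (one_mul v.2).symm)
  have hconj : ∀ (τ x : E (prodForm Q Q)) (v : L × L), (x : (L × L) ≃ₗ[F] (L × L)) v = v →
      ((τ * x * τ⁻¹ : E (prodForm Q Q)) : (L × L) ≃ₗ[F] (L × L)) ((τ : (L × L) ≃ₗ[F] (L × L)) v) =
        (τ : (L × L) ≃ₗ[F] (L × L)) v := by
    intro τ x v hv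
    show (τ : (L × L) ≃ₗ[F] (L × L)) ((x : (L × L) ≃ₗ[F] (L × L)) ((τ : (L × L) ≃ₗ[F] (L × L)).symm
      ((τ : (L × L) ≃ₗ[F] (L × L)) v))) = _
    rw [LinearEquiv.symm_apply_apply, hv]
  have hord : ∀ τ x : E (prodForm Q Q), orderOf (τ * x * τ⁻¹) = orderOf x := fun τ x =>
    orderOf_injective (MulAut.conj τ).toMonoidHom (MulAut.conj τ).injective x
  have hTord : ∀ z, orderOf (T z) = orderOf z := fun z => orderOf_injective T hTinj z
  -- the two subgroups
  set D₀ : Subgroup (Z × Z) := D.comap T with hD₀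
  have hfin : D₀ = ⊤ → False := by
    intro h
    apply hne
    refine le_antisymm hD ?_
    rintro _ ⟨z, rfl⟩
    have h5 : z ∈ D₀ := by rw [h]; exact Subgroup.mem_top z
    exact h5
  set D₁ : Subgroup Z := D₀.comap (MonoidHom.inl Z Z) with hD₁
  set D₂ : Subgroup Z := D₀.comap (MonoidHom.inr Z Z) with hD₂
  have hprod : D₁ = ⊤ → D₂ = ⊤ → False := by
    intro h5 h6
    apply hfin
    rw [eq_top_iff]
    rintro ⟨z, w⟩ -
    have h7 : z ∈ D₁ := by rw [h5]; exact Subgroup.mem_top z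
    have h8 : w ∈ D₂ := by rw [h6]; exact Subgroup.mem_top w
    have h9 : (z, w) = ((z, 1) : Z × Z) * (1, w) := by
      rw [Prod.mk_mul_mk, mul_one, one_mul]
    rw [h9]
    exact D₀.mul_mem h7 h8
  -- the first class
  have key0 : D₁ = ⊤ ∨ D₂ = ⊤ := by
    obtain ⟨⟨z, w⟩, hzw⟩ := hD h3
    have h5 : orderOf ((z, w) : Z × Z) = r ^ a := by
      rw [← hTord, hzw, hord, hTord, Prod.orderOf_mk, orderOf_one, Nat.lcm_one_right, hζ]
    have hmem : (z, w) ∈ D₀ := by
      show T (z, w) ∈ D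
      rw [hzw]
      exact h3
    have h6 : ((T (ζ, 1) : E (prodForm Q Q)) : (L × L) ≃ₗ[F] (L × L)) (0, 1) = (0, 1) := by
      rw [hT, dd_apply]
      refine Prod.ext (mul_zero _) ?_
      show (((1 : Z) : Lˣ) : L) * 1 = 1
      rw [mul_one]
      rfl
    have h7 := hconj τ₀ _ _ h6
    rw [← hzw] at h7
    obtain ⟨h8, h9⟩ := hTfix _ _ h7
    set v := (τ₀ : (L × L) ≃ₗ[F] (L × L)) (0, 1) with hv
    have hv0 : v ≠ 0 := by
      rw [hv, Ne, LinearEquiv.map_eq_zero_iff]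
      intro h
      exact one_ne_zero (congrArg Prod.snd h)
    by_cases hv1 : v.1 = 0
    · have hv2 : v.2 ≠ 0 := fun h => hv0 (Prod.ext hv1 h)
      have hw : w = 1 := h9 hv2
      left
      subst hw
      rw [Prod.orderOf_mk, orderOf_one, Nat.lcm_one_right] at h5
      exact top_of_order hZ h5 hmem
    · have hz : z = 1 := h8 hv1
      right
      subst hz
      rw [Prod.orderOf_mk, orderOf_one, Nat.lcm_one_left] at h5
      exact top_of_order hZ h5 hmem
  -- the second class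
  obtain ⟨⟨z, w⟩, hzw⟩ := hD h4
  have hmem : (z, w) ∈ D₀ := by
    show T (z, w) ∈ D
    rw [hzw]
    exact h4
  have hpw : (τ₁ * x₁ * τ₁⁻¹) ^ r ^ (a - 1) ≠ 1 := by
    intro h
    have h5 := orderOf_dvd_of_pow_eq_one h
    rw [hord, h1] at h5
    have h6 := (Nat.pow_dvd_pow_iff_le_right hr.one_lt).1 h5
    omega
  have hfull : ∀ y : Z, y ^ r ^ (a - 1) ≠ 1 → orderOf y = r ^ a := by
    intro y hy
    have h5 : orderOf y ∣ r ^ a := hZ ▸ orderOf_dvd_natCard y
    obtain ⟨j, hj, hj2⟩ := (Nat.dvd_prime_pow hr).1 h5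
    rcases Nat.lt_or_ge j a with h6 | h6
    · exfalso
      apply hy
      rw [← orderOf_dvd_iff_pow_eq_one, hj2]
      exact pow_dvd_pow r (by omega)
    · rw [hj2, le_antisymm hj h6]
  have hnofix : ∀ v : L × L, v ≠ 0 → ((T ((z, w) ^ r ^ (a - 1)) : E (prodForm Q Q)) : (L × L) ≃ₗ[F] (L × L)) v = v →
      False := by
    intro v hv h
    rw [map_pow, hzw] at h
    have h5 : ((x₁ ^ r ^ (a - 1) : E (prodForm Q Q)) : (L × L) ≃ₗ[F] (L × L))
        (((τ₁⁻¹ : E (prodForm Q Q)) : (L × L) ≃ₗ[F] (L × L)) v) =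
        ((τ₁⁻¹ : E (prodForm Q Q)) : (L × L) ≃ₗ[F] (L × L)) v := by
      have h6 := hconj τ₁⁻¹ _ _ h
      have h7 : τ₁⁻¹ * (τ₁ * x₁ * τ₁⁻¹) ^ r ^ (a - 1) * τ₁⁻¹⁻¹ = x₁ ^ r ^ (a - 1) := by
        rw [_root_.conj_pow]
        group
      rwa [h7] at h6
    have h6 := h2 _ _ (by rw [Ne, LinearEquiv.map_eq_zero_iff]; exact hv) h5
    apply hpw
    rw [_root_.conj_pow, h6, mul_one, mul_inv_cancel]
  have hz : orderOf z = r ^ a := by
    refine hfull z fun h => hnofix (1, 0) (fun h5 => one_ne_zero (congrArg Prod.fst h5)) ?_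
    rw [Prod.pow_mk, h, hT, dd_apply]
    refine Prod.ext ?_ (mul_zero _)
    show (((1 : Z) : Lˣ) : L) * 1 = 1
    rw [mul_one]
    rfl
  have hw : orderOf w = r ^ a := by
    refine hfull w fun h => hnofix (0, 1) (fun h5 => one_ne_zero (congrArg Prod.snd h5)) ?_
    rw [Prod.pow_mk, h, hT, dd_apply]
    refine Prod.ext (mul_zero _) ?_
    show (((1 : Z) : Lˣ) : L) * 1 = 1
    rw [mul_one]
    rfl
  rcases key0 with h5 | h5
  · refine hprod h5 (top_of_order hZ hw ?_)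
    have h6 : z⁻¹ ∈ D₁ := by rw [h5]; exact Subgroup.mem_top _
    have h7 := D₀.mul_mem h6 hmem
    have h8 : (MonoidHom.inl Z Z) z⁻¹ * (z, w) = (1, w) := by
      rw [MonoidHom.inl_apply, Prod.mk_mul_mk, inv_mul_cancel, one_mul]
    rw [h8] at h7
    exact h7
  · refine hprod (top_of_order hZ hz ?_) h5
    have h6 : w⁻¹ ∈ D₂ := by rw [h5]; exact Subgroup.mem_top _
    have h7 := D₀.mul_mem h6 hmem
    have h8 : (MonoidHom.inr Z Z) w⁻¹ * (z, w) = (z, 1) := by
      rw [MonoidHom.inr_apply, Prod.mk_mul_mk, inv_mul_cancel, one_mul]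
    rw [h8] at h7
    exact h7

end classes

end Cfsg.Agent.H559.OZ
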